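import Mathlib

/-! ZD, part 2: the arithmetic of the slice `Num` (notes/zd2.md). -/

set_option autoImplicit false

namespace Cfsg.Agent.As.NumA

variable {q x y w : ℤ}

theorem pos_y {c : ℤ} (hq : 4 ≤ q) (hx : 1 ≤ x) (hc : 0 < c) (h : (1 + x * q) * (q * y - 1) = c) :
    1 ≤ y := by
  by_contra! h0
  nlinarith [mul_pos (show 0 < 1 + x * q by nlinarith) (show 0 < 1 - q * y by nlinarith)]

theorem j1 (hq : 4 ≤ q) (hx : 1 ≤ x) (h : (1 + x * q) * (q * y - 1) = (q + 1) * (q - 1)) :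
    x = 1 ∧ y = 1 := by
  have hy := pos_y hq hx (by nlinarith) h
  have e : y + x * y * q - x = q := mul_left_cancel₀ (show q ≠ 0 by omega) (by linear_combination h)
  obtain rfl : x = 1 := by
    by_contra h1
    nlinarith [mul_nonneg (show 0 ≤ y - 1 by omega) (show 0 ≤ 1 + x * q by nlinarith),
      mul_pos (show 0 < x - 1 by omega) (show 0 < q - 1 by omega)]
  exact ⟨rfl, mul_right_cancel₀ (show 1 + q ≠ 0 by omega) (by linear_combination e)⟩

theorem j2 (hq : 4 ≤ q) (ev : Even q) (hx : 1 ≤ x)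
    (h : (1 + x * q) * (q * y - 1) = (q ^ 2 + 1) * (q - 1)) : x = q ∧ y = 1 := by
  have hy := pos_y hq hx (by nlinarith) h
  have e : y - x - 1 = (q - 1 - x * y) * q :=
    mul_left_cancel₀ (show q ≠ 0 by omega) (by linear_combination h)
  generalize hi : q - 1 - x * y = i at e
  rcases lt_trichotomy i 0 with h1 | rfl | h1
  · have h2 : x ≤ x * y := by nlinarith
    obtain rfl : i = -1 := by
      by_contra h3
      nlinarith [mul_pos (show 0 < -i - 1 by omega) (show 0 < q - 1 by omega)]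
    obtain rfl : y = 1 := by
      by_contra h3
      nlinarith [mul_le_mul_of_nonneg_left (show 2 ≤ y by omega) (show 0 ≤ x by omega)]
    exact ⟨by omega, rfl⟩
  · obtain rfl : y = x + 1 := by omega
    have := Int.even_mul_succ_self x
    rw [show x * (x + 1) = q - 1 by omega] at this
    exact absurd (Int.even_sub.1 this |>.1 ev) (by decide)
  · nlinarith [mul_le_mul_of_nonneg_right (show 1 ≤ i by omega) (show 0 ≤ q by omega),
      mul_le_mul_of_nonneg_right hx (show 0 ≤ y by omega)]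

theorem j3a (hq : 4 ≤ q) (ev : Even q) (hx : 2 ≤ x) (h : 1 + x * q ∣ 3 * (q ^ 2 - 1)) :
    q = 4 ∧ (x = 2 ∨ x = 11) := by
  obtain ⟨z, hz⟩ := h
  obtain ⟨w, rfl⟩ : ∃ w, z = q * w - 3 := ⟨3 * q - x * z, by linear_combination -hz⟩
  have e : w * (1 + x * q) = 3 * (q + x) :=
    mul_left_cancel₀ (show q ≠ 0 by omega) (by linear_combination -hz)
  have hw : 1 ≤ w := by
    by_contra! h0
    nlinarith [mul_nonneg (show 0 ≤ -w by omega) (show 0 ≤ 1 + x * q by nlinarith)]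
  have h2 : w ≤ 2 := by
    by_contra! h0
    nlinarith [mul_nonneg (show 0 ≤ w - 3 by omega) (show 0 ≤ 1 + x * q by nlinarith),
      mul_pos (show 0 < x - 1 by omega) (show 0 < q - 1 by omega)]
  interval_cases w
  · have h3 : (x - 3) * (q - 3) = 8 := by linear_combination e
    have h4 : q - 3 ≤ 8 := Int.le_of_dvd (by decide) ⟨x - 3, by linear_combination -h3⟩
    obtain ⟨k, rfl⟩ := ev
    have : k ≤ 5 := by omega
    have : 2 ≤ k := by omega
    interval_cases k <;> omega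
  · have h3 : (2 * x - 3) * (2 * q - 3) = 5 := by linear_combination 2 * e
    have h4 : 2 * q - 3 ≤ 5 := Int.le_of_dvd (by decide) ⟨2 * x - 3, by linear_combination -h3⟩
    obtain rfl : q = 4 := by omega
    omega

theorem j3b {m : ℤ} (h : m ∣ (q ^ 3 + 1) * (q - 1))
    (hp : ∀ p : ℕ, p.Prime → (p : ℤ) ∣ m → (p : ℤ) ∣ q ^ 2 - 1) (h0 : 0 < q) : m ∣ 3 * (q ^ 2 - 1) := by
  have h1 : m ∣ gcd m (q ^ 2 - q + 1) * (q ^ 2 - 1) :=
    dvd_gcd_mul_of_dvd_mul (h.trans (dvd_of_eq (by ring)))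
  refine h1.trans (mul_dvd_mul_right ?_ _)
  have g1 := gcd_dvd_left m (q ^ 2 - q + 1)
  have g2 := gcd_dvd_right m (q ^ 2 - q + 1)
  generalize gcd m (q ^ 2 - q + 1) = g at g1 g2
  rw [← Int.natAbs_dvd] at g1 g2 ⊢
  generalize g.natAbs = n at g1 g2
  have n0 : n ≠ 0 := by
    rintro rfl
    have := zero_dvd_iff.1 g2
    nlinarith
  have h3 := Nat.eq_prime_pow_of_unique_prime_dvd (p := 3) n0 fun {d} hd hn => by
    have d1 := (Int.natCast_dvd_natCast.2 hn).trans g2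
    have d2 := hp d hd ((Int.natCast_dvd_natCast.2 hn).trans g1)
    have : (d : ℤ) ∣ 3 :=
      ((d1.mul_left (q + 2)).sub (d2.mul_left (q + 1))).trans (dvd_of_eq (by ring))
    exact (Nat.prime_dvd_prime_iff_eq hd Nat.prime_three).1 (by exact_mod_cast this)
  generalize n.primeFactorsList.length = k at h3
  subst h3
  match k with
  | 0 => simp
  | 1 => simp
  | k + 2 =>
    have h9 : (9 : ℤ) ∣ q ^ 2 - q + 1 := Dvd.dvd.trans ⟨3 ^ k, by push_cast; ring⟩ g2
    obtain ⟨s, r, rfl, h1, h2⟩ : ∃ s r, q = 9 * s + r ∧ 0 ≤ r ∧ r < 9 :=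
      ⟨q / 9, q % 9, by omega, by omega, by omega⟩
    have : (9 : ℤ) ∣ r ^ 2 - r + 1 :=
      (h9.sub (dvd_mul_right 9 (9 * s ^ 2 + 2 * s * r - s))).trans (dvd_of_eq (by ring))
    interval_cases r <;> simp_all

theorem main {q j m n y : ℕ} (hq : 4 ≤ q) (ev : Even q) (hj : j = 1 ∨ j = 2 ∨ j = 3) (ho : Odd m)
    (hn : n = q ^ (j + 1) * y + 1)
    (e : m * n + (q ^ j + 1) * (q - 1) = m * (q ^ j + 1) + (q ^ j + 1) * (q ^ j + 1) * (q - 1))
    (h2 : ∀ p : ℕ, p.Prime → p ∣ m → n ≡ 2 [MOD p])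
    (h3 : j = 3 → ∀ p : ℕ, p.Prime → p ∣ m → p ∣ q ^ 2 - 1) :
    m = 1 ∨ n = q ^ 2 + 1 ∧ m * (q - 1) + 1 = q ^ 2 := by
  have hq' : (4 : ℤ) ≤ q := by exact_mod_cast hq
  have ev' : Even (q : ℤ) := by exact_mod_cast ev
  subst hn
  zify [show 1 ≤ q by omega] at e
  have e1 : (m : ℤ) * (q * y - 1) = (q ^ j + 1) * (q - 1) :=
    mul_left_cancel₀ (pow_ne_zero j (show (q : ℤ) ≠ 0 by omega)) (by linear_combination e)
  obtain ⟨i, rfl⟩ : ∃ i, j = i + 1 := ⟨j - 1, by omega⟩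
  obtain ⟨x, hx⟩ : ∃ x : ℤ, m = 1 + x * q := ⟨m * y - q ^ (i + 1) + q ^ i - 1, by linear_combination -e1⟩
  refine or_iff_not_imp_left.2 fun m1 => ?_
  have x1 : 1 ≤ x := by
    by_contra! h
    have := ho.pos
    nlinarith [mul_nonneg (show 0 ≤ -x by omega) (show (0 : ℤ) ≤ q by omega), show (2 : ℤ) ≤ m by omega]
  have key : (∀ p : ℕ, (p : ℤ) ∣ m → (p : ℤ) ∣ q ^ (i + 1 + 1) * y - 1 → (p : ℤ) ∣ 4) → False :=
    fun h => by
      obtain ⟨p, hp, hd⟩ := Nat.exists_prime_and_dvd m1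
      have := h p (Int.natCast_dvd_natCast.2 hd) (by
        have := (h2 p hp hd).symm.dvd; push_cast at this; convert this using 1; ring)
      have h4 : p ∣ 2 ^ 2 := by exact_mod_cast this
      obtain rfl := (Nat.prime_dvd_prime_iff_eq hp Nat.prime_two).1 (hp.dvd_of_dvd_pow h4)
      exact Nat.not_even_iff_odd.2 ho (even_iff_two_dvd.2 hd)
  rw [hx] at e1
  obtain rfl | rfl | rfl : i = 0 ∨ i = 1 ∨ i = 2 := by omega
  · obtain ⟨rfl, h⟩ := j1 hq' x1 (by simpa using e1)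
    obtain rfl : y = 1 := by exact_mod_cast h
    refine ⟨by simp, ?_⟩
    zify [show 1 ≤ q by omega]
    rw [hx]; ring
  · obtain ⟨rfl, h⟩ := j2 hq' ev' x1 e1
    refine (key fun p d1 d2 => ?_).elim
    rw [hx] at d1
    rw [h] at d2
    exact ((d1.mul_left (2 * (1 + q - q ^ 2))).add (d2.mul_left (2 * (q - 1)))).trans
      (dvd_of_eq (by ring))
  · have h4 := j3b (q := q) (Dvd.intro _ e1) (fun p hp hd => by
      have := Int.natCast_dvd_natCast.2 (h3 rfl p hp (Int.natCast_dvd_natCast.1 (hx ▸ hd)))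
      rwa [Nat.cast_sub (Nat.one_le_pow _ _ (by omega)), Nat.cast_pow] at this) (by omega)
    rcases x1.eq_or_lt with rfl | x2
    · refine (key fun p d1 d2 => ?_).elim
      have hy : (y : ℤ) = q ^ 2 - 2 * q + 2 :=
        mul_left_cancel₀ (show (q : ℤ) * (q + 1) ≠ 0 by positivity) (by linear_combination e1)
      rw [hx] at d1
      rw [hy] at d2
      exact (d2.sub (d1.mul_left (q ^ 5 - 3 * q ^ 4 + 5 * q ^ 3 - 5 * q ^ 2 + 5 * q - 5))).trans
        (dvd_of_eq (by ring))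
    · obtain ⟨h5, rfl | rfl⟩ := j3a hq' ev' x2 h4 <;> rw [h5] at e1 <;> omega

end Cfsg.Agent.As.NumA
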